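import Mathlib
import Cfsg.Agent.Lib.Helper69.ClassSize

/-!
# Knoche: `p`-groups of breadth one have a commutator subgroup of order dividing `p`
-/

namespace Cfsg.Agent.Lib.Helper7.SqFree

open Subgroup Cfsg.Agent.Lib.Helper69
open scoped commutatorElement

variable {p : ℕ} [Fact p.Prime]

section Q1

variable {P : Type*} [Group P] [Finite P]

theorem index_cent_eq (hP : IsPGroup p P)
    (h : ∀ x : P, ¬ p ^ 2 ∣ (centralizer ({x} : Set P)).index) (x : P) :
    (centralizer ({x} : Set P)).index = 1 ∨ (centralizer ({x} : Set P)).index = p := by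
  obtain ⟨n, hn⟩ := IsPGroup.iff_card.1 hP
  have hd : (centralizer ({x} : Set P)).index ∣ p ^ n := hn ▸ Subgroup.index_dvd_card _
  obtain ⟨j, -, hj'⟩ := (Nat.dvd_prime_pow Fact.out).1 hd
  have h2 := h x
  rw [hj'] at h2 ⊢
  rcases j with _ | _ | j
  · left; simp
  · right; simp
  · exact absurd (pow_dvd_pow p (by omega)) h2

theorem commutator_le_cent (hP : IsPGroup p P)
    (h : ∀ x : P, ¬ p ^ 2 ∣ (centralizer ({x} : Set P)).index) (x : P) :
    commutator P ≤ centralizer ({x} : Set P) := by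
  rcases index_cent_eq hP h x with h1 | h1
  · rw [index_eq_one] at h1; rw [h1]; exact le_top
  · have hn : (centralizer ({x} : Set P)).Normal := by
      apply normal_of_index_eq_minFac_card
      obtain ⟨n, hn⟩ := IsPGroup.iff_card.1 hP
      have hn0 : n ≠ 0 := by
        rintro rfl
        have hd : (centralizer ({x} : Set P)).index ∣ Nat.card P := Subgroup.index_dvd_card _
        rw [hn, h1, pow_zero] at hd
        exact (Fact.out : p.Prime).one_lt.ne' (Nat.dvd_one.1 hd)
      rw [hn, h1, Nat.Prime.pow_minFac Fact.out hn0]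
    have hc : Nat.card (P ⧸ centralizer ({x} : Set P)) = p := by
      rw [← Subgroup.index_eq_card, h1]
    have hcyc : IsCyclic (P ⧸ centralizer ({x} : Set P)) := isCyclic_of_prime_card hc
    have : IsMulCommutative (P ⧸ centralizer ({x} : Set P)) :=
      ⟨⟨fun a b => (IsCyclic.commGroup).mul_comm a b⟩⟩
    exact Subgroup.Normal.quotient_commutative_iff_commutator_le.1 this

theorem comm_central (hP : IsPGroup p P)
    (h : ∀ x : P, ¬ p ^ 2 ∣ (centralizer ({x} : Set P)).index) (a b c : P) :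
    ⁅a, b⁆ * c = c * ⁅a, b⁆ := by
  have h1 : ⁅a, b⁆ ∈ commutator P := by
    rw [commutator_eq_closure]
    exact Subgroup.subset_closure (commutator_mem_commutatorSet a b)
  exact mem_cent_singleton.1 (commutator_le_cent hP h c h1)

/-- `g ↦ ⁅x, g⁆` as a homomorphism -/
noncomputable def commHom (hz : ∀ a b c : P, ⁅a, b⁆ * c = c * ⁅a, b⁆) (x : P) : P →* P :=
  MonoidHom.mk' (fun g => ⁅x, g⁆) (by
    intro g k
    have e : ⁅x, g * k⁆ = x * g * x⁻¹ * (⁅x, k⁆ * g⁻¹) := by
      simp only [commutatorElement_def]; group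
    rw [e, hz x k g⁻¹]
    simp only [commutatorElement_def]; group)

omit [Finite P] in
theorem commHom_apply (hz : ∀ a b c : P, ⁅a, b⁆ * c = c * ⁅a, b⁆) (x g : P) :
    commHom hz x g = ⁅x, g⁆ := rfl

omit [Finite P] in
theorem commHom_ker (hz : ∀ a b c : P, ⁅a, b⁆ * c = c * ⁅a, b⁆) (x : P) :
    (commHom hz x).ker = centralizer ({x} : Set P) := by
  ext g
  rw [MonoidHom.mem_ker, commHom_apply, commutatorElement_eq_one_iff_mul_comm, mem_cent_singleton]
  exact eq_comm

theorem card_range_commHom (hP : IsPGroup p P)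
    (h : ∀ x : P, ¬ p ^ 2 ∣ (centralizer ({x} : Set P)).index)
    (hz : ∀ a b c : P, ⁅a, b⁆ * c = c * ⁅a, b⁆) {x g : P} (hg : ⁅x, g⁆ ≠ 1) :
    Nat.card (commHom hz x).range = p := by
  rw [← Subgroup.index_ker, commHom_ker]
  rcases index_cent_eq hP h x with h1 | h1
  · exfalso
    rw [index_eq_one] at h1
    have : g ∈ centralizer ({x} : Set P) := h1 ▸ mem_top g
    rw [mem_cent_singleton] at this
    exact hg (commutatorElement_eq_one_iff_mul_comm.2 this.symm)
  · exact h1

theorem mem_zpowers_comm (hP : IsPGroup p P)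
    (h : ∀ x : P, ¬ p ^ 2 ∣ (centralizer ({x} : Set P)).index)
    (hz : ∀ a b c : P, ⁅a, b⁆ * c = c * ⁅a, b⁆) {x g : P} (hg : ⁅x, g⁆ ≠ 1) (k : P) :
    ⁅x, k⁆ ∈ zpowers ⁅x, g⁆ := by
  have hc := card_range_commHom hP h hz hg
  have hmem : (⟨⁅x, k⁆, ⟨k, rfl⟩⟩ : (commHom hz x).range) ∈
      Subgroup.zpowers (⟨⁅x, g⁆, ⟨g, rfl⟩⟩ : (commHom hz x).range) := by
    apply mem_zpowers_of_prime_card hc
    intro h
    exact hg (congrArg Subtype.val h)
  obtain ⟨j, hj⟩ := Subgroup.mem_zpowers_iff.1 hmem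
  have hj' : ⁅x, g⁆ ^ j = ⁅x, k⁆ := congrArg Subtype.val hj
  rw [← hj']
  exact Subgroup.zpow_mem _ (mem_zpowers _) j

/-- **Knoche**: a `p`-group all of whose class sizes are `1` or `p` has `|P'| ∣ p`. -/
theorem card_commutator_dvd_of_breadth_one (hP : IsPGroup p P)
    (h : ∀ x : P, ¬ p ^ 2 ∣ (centralizer ({x} : Set P)).index) :
    Nat.card (commutator P) ∣ p := by
  have hz := comm_central hP h
  by_cases hall : ∀ x g : P, ⁅x, g⁆ = 1
  · have : commutator P = ⊥ := by
      rw [eq_bot_iff, commutator_eq_closure, closure_le]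
      rintro _ ⟨a, b, rfl⟩
      exact hall a b
    rw [this, card_bot]
    exact one_dvd p
  · push Not at hall
    obtain ⟨x, g, hg⟩ := hall
    have hle : commutator P ≤ (commHom hz x).range := by
      rw [commutator_eq_closure, closure_le]
      rintro _ ⟨y, k, rfl⟩
      by_cases hk : ⁅y, k⁆ = 1
      · rw [hk]; exact one_mem _
      -- an element commuting neither with `x` nor with `y`
      have hw : ∃ w : P, ⁅x, w⁆ ≠ 1 ∧ ⁅y, w⁆ ≠ 1 := by
        by_cases h1 : ⁅y, g⁆ = 1
        · by_cases h2 : ⁅x, k⁆ = 1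
          · refine ⟨g * k, ?_, ?_⟩
            · have := (commHom hz x).map_mul g k
              simp only [commHom_apply] at this
              rw [this, h2, mul_one]; exact hg
            · have := (commHom hz y).map_mul g k
              simp only [commHom_apply] at this
              rw [this, h1, one_mul]; exact hk
          · exact ⟨k, h2, hk⟩
        · exact ⟨g, hg, h1⟩
      obtain ⟨w, hw1, hw2⟩ := hw
      have hw1' : ⁅w, x⁆ ≠ 1 := by
        rw [← commutatorElement_inv]; exact inv_ne_one.2 hw1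
      have e1 : zpowers ⁅y, w⁆ ≤ zpowers ⁅w, x⁆ := by
        rw [zpowers_le, ← commutatorElement_inv w y]
        exact inv_mem (mem_zpowers_comm hP h hz hw1' y)
      have e2 : zpowers ⁅w, x⁆ ≤ zpowers ⁅x, g⁆ := by
        rw [zpowers_le, ← commutatorElement_inv x w]
        exact inv_mem (mem_zpowers_comm hP h hz hg w)
      have e3 : zpowers ⁅x, g⁆ ≤ (commHom hz x).range := by
        rw [zpowers_le]; exact ⟨g, rfl⟩
      exact e3 (e2 (e1 (mem_zpowers_comm hP h hz hw2 k)))
    have := Subgroup.card_dvd_of_le hle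
    rwa [card_range_commHom hP h hz hg] at this

end Q1

end Cfsg.Agent.Lib.Helper7.SqFree
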