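import Mathlib
import Cfsg.Agent.Lib.Helper19.SqFree.Defs
import Cfsg.Agent.Lib.Helper69.SylowCent
import Cfsg.Agent.Lib.Helper1.Nilpotent
import Cfsg.Agent.Lib.Helper7.SqFreeQ1

/-!
# A group with square-free class sizes has no commutator subgroup of order `p ^ 2`
-/

namespace Cfsg.Agent.Lib.Helper7.SqFree

open Subgroup Cfsg.Agent.Lib.Helper69 Cfsg.Agent.Lib.Helper19.SqFree
open scoped commutatorElement

variable {G : Type*} [Group G] {p : ℕ} [Fact p.Prime]

/-- if the `p`-element `[x, h]` commutes with the `p'`-element `h` then it is trivial -/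
theorem comm_eq_one_of_commute {x h : G} {k : ℕ} (hc : Commute (x * h * x⁻¹ * h⁻¹) h)
    (ht : (x * h * x⁻¹ * h⁻¹) ^ (p ^ k) = 1) (ho : ¬ p ∣ orderOf h) :
    x * h * x⁻¹ * h⁻¹ = 1 := by
  set t := x * h * x⁻¹ * h⁻¹ with htdef
  have e1 : x * h * x⁻¹ = t * h := by rw [htdef]; group
  have e2 : (t * h) ^ orderOf h = t ^ orderOf h := by
    rw [hc.mul_pow, pow_orderOf_eq_one, mul_one]
  have e3 : (x * h * x⁻¹) ^ orderOf h = 1 := by
    rw [conj_pow, pow_orderOf_eq_one, mul_one, mul_inv_cancel]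
  have e4 : t ^ orderOf h = 1 := by rw [← e2, ← e1, e3]
  have hcop : (p ^ k).Coprime (orderOf h) :=
    Nat.Coprime.pow_left k ((Nat.Prime.coprime_iff_not_dvd Fact.out).2 ho)
  have := pow_gcd_eq_one.mpr ⟨ht, e4⟩
  rwa [hcop.gcd_eq_one, pow_one] at this

theorem relIndex_cent_eq [Finite G] (h : SF G) (N : Subgroup G) [N.Normal] (hN : IsPGroup p N)
    (g : G) :
    (centralizer ({g} : Set G)).relIndex N = 1 ∨ (centralizer ({g} : Set G)).relIndex N = p := by
  obtain ⟨n, hn⟩ := IsPGroup.iff_card.1 hN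
  have hd : (centralizer ({g} : Set G)).relIndex N ∣ p ^ n := hn ▸ Subgroup.relIndex_dvd_card _ _
  obtain ⟨j, -, hj'⟩ := (Nat.dvd_prime_pow Fact.out).1 hd
  have h2 : ¬ p ^ 2 ∣ (centralizer ({g} : Set G)).relIndex N :=
    fun hd => h.not_sq_dvd Fact.out g (hd.trans (relIndex_cent_dvd N g))
  rw [hj'] at h2 ⊢
  rcases j with _ | _ | j
  · left; simp
  · right; simp
  · exact absurd (pow_dvd_pow p (by omega)) h2

/-- a subgroup of prime relative index together with a normal subgroup not contained in it -/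
theorem exists_mul_of_relIndex_prime (K N M : Subgroup G) [N.Normal] (hNM : N ≤ M)
    (hK : K.relIndex M = p) (hNK : ¬ N ≤ K) :
    ∀ x ∈ M, ∃ n ∈ N, ∃ c ∈ K, c ∈ M ∧ x = n * c := by
  intro x hx
  have hJM : N ⊔ (K ⊓ M) ≤ M := sup_le hNM inf_le_right
  have hKJ : K ⊓ M ≤ N ⊔ (K ⊓ M) := le_sup_right
  have h1 := relIndex_mul_relIndex (K ⊓ M) (N ⊔ (K ⊓ M)) M hKJ hJM
  rw [inf_relIndex_right, hK] at h1
  have h2 : (K ⊓ M).relIndex (N ⊔ (K ⊓ M)) ≠ 1 := by
    intro h; rw [relIndex_eq_one] at h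
    exact hNK ((le_sup_left.trans h).trans inf_le_left)
  have h3 : (N ⊔ (K ⊓ M)).relIndex M = 1 := by
    rcases Nat.Prime.eq_one_or_self_of_dvd Fact.out _ (Dvd.intro _ h1) with h4 | h4
    · exact absurd h4 h2
    · rw [h4] at h1
      exact Nat.eq_of_mul_eq_mul_left (Fact.out : p.Prime).pos (by rw [h1, mul_one])
  rw [relIndex_eq_one] at h3
  obtain ⟨n, hn, c, hc, rfl⟩ := mem_sup_of_normal_left.1 (h3 hx)
  exact ⟨n, hn, c, hc.1, hc.2, rfl⟩

theorem le_of_mem_of_card_prime {B C : Subgroup G} (hB : Nat.card B = p) {z : G} (hz : z ∈ B)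
    (hz1 : z ≠ 1) (hzC : z ∈ C) : B ≤ C := by
  intro y hy
  have hmem : (⟨y, hy⟩ : B) ∈ Subgroup.zpowers (⟨z, hz⟩ : B) := by
    apply mem_zpowers_of_prime_card hB
    intro h
    exact hz1 (congrArg Subtype.val h)
  obtain ⟨k, hk⟩ := Subgroup.mem_zpowers_iff.1 hmem
  have hk' : z ^ k = y := congrArg Subtype.val hk
  rw [← hk']
  exact Subgroup.zpow_mem _ hzC k

theorem ne_bot_of_card_prime {B : Subgroup G} (hB : Nat.card B = p) : B ≠ ⊥ := by
  rintro rfl
  rw [Subgroup.card_bot] at hB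
  exact (Fact.out : p.Prime).one_lt.ne hB

/-- a normal subgroup of order `p` is centralized by every `p`-subgroup containing it -/
theorem commute_of_card_prime [Finite G] (P B : Subgroup G) (hP : IsPGroup p P) [B.Normal]
    (hBP : B ≤ P) (hB : Nat.card B = p) : ∀ x ∈ P, ∀ b ∈ B, x * b = b * x := by
  have hnil : Group.IsNilpotent P := hP.isNilpotent
  have hne : B.subgroupOf P ≠ ⊥ := by
    intro h
    rw [subgroupOf_eq_bot, disjoint_iff, inf_eq_left.2 hBP] at h
    exact ne_bot_of_card_prime hB h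
  have h1 := Helper1.normal_inf_center_ne_bot hne
  obtain ⟨⟨z, hz⟩, hz1'⟩ := Subgroup.ne_bot_iff_exists_ne_one.1 h1
  have hz1 : (z : G) ≠ 1 := fun h => hz1' (Subtype.ext (Subtype.ext h))
  have hzB : (z : G) ∈ B := mem_subgroupOf.1 hz.1
  have hle : B ≤ centralizer (P : Set G) := by
    apply le_of_mem_of_card_prime hB hzB hz1
    rw [mem_centralizer_iff]
    intro x hx
    have := (Subgroup.mem_center_iff.1 hz.2) ⟨x, hx⟩
    exact congrArg Subtype.val this
  intro x hx b hb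
  exact (mem_centralizer_iff.1 (hle hb)) x hx

/-- `t ↦ [t, h]` on an abelian normal subgroup -/
noncomputable def commT (T : Subgroup G) [hTn : T.Normal] (hTab : ∀ a ∈ T, ∀ b ∈ T, a * b = b * a)
    (h : G) : T →* G :=
  MonoidHom.mk' (fun t => (t : G) * h * (t : G)⁻¹ * h⁻¹) (by
    intro s t
    have e1 : ((s * t : T) : G) * h * ((s * t : T) : G)⁻¹ * h⁻¹ =
        (s : G) * (((t : G) * (h * (t : G)⁻¹ * h⁻¹)) * (h * (s : G)⁻¹ * h⁻¹)) := by
      rw [Subgroup.coe_mul]; group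
    have m1 : (t : G) * (h * (t : G)⁻¹ * h⁻¹) ∈ T :=
      T.mul_mem t.2 (hTn.conj_mem _ (T.inv_mem t.2) h)
    have m2 : h * (s : G)⁻¹ * h⁻¹ ∈ T := hTn.conj_mem _ (T.inv_mem s.2) h
    rw [e1, hTab _ m1 _ m2]
    group)

theorem commT_apply (T : Subgroup G) [T.Normal] (hTab : ∀ a ∈ T, ∀ b ∈ T, a * b = b * a)
    (h : G) (t : T) : commT T hTab h t = (t : G) * h * (t : G)⁻¹ * h⁻¹ := rfl

theorem commT_range_le (T : Subgroup G) [hTn : T.Normal]
    (hTab : ∀ a ∈ T, ∀ b ∈ T, a * b = b * a) (h : G) : (commT T hTab h).range ≤ T := by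
  rintro _ ⟨t, rfl⟩
  rw [commT_apply]
  have : (t : G) * h * (t : G)⁻¹ * h⁻¹ = (t : G) * (h * (t : G)⁻¹ * h⁻¹) := by group
  rw [this]
  exact T.mul_mem t.2 (hTn.conj_mem _ (T.inv_mem t.2) h)

theorem card_commT_range (T : Subgroup G) [T.Normal]
    (hTab : ∀ a ∈ T, ∀ b ∈ T, a * b = b * a) (h : G) :
    Nat.card (commT T hTab h).range = (centralizer ({h} : Set G)).relIndex T := by
  rw [← Subgroup.index_ker, relIndex]
  congr 1
  ext t
  rw [MonoidHom.mem_ker, commT_apply, mem_subgroupOf, mem_cent_singleton]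
  constructor
  · intro e
    have : (t : G) * h = ((t : G) * h * (t : G)⁻¹ * h⁻¹) * (h * t) := by group
    rw [this, e, one_mul]
  · intro e
    rw [e]; group

theorem commT_range_normal (T : Subgroup G) [hTn : T.Normal]
    (hTab : ∀ a ∈ T, ∀ b ∈ T, a * b = b * a) (hcT : commutator G ≤ T) (h : G) :
    (commT T hTab h).range.Normal := by
  constructor
  rintro _ ⟨t, rfl⟩ g
  rw [commT_apply]
  have hc : g * h * g⁻¹ * h⁻¹ ∈ T := by
    apply hcT
    rw [commutator_eq_closure]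
    exact Subgroup.subset_closure (commutator_mem_commutatorSet g h)
  have ht' : g * (t : G) * g⁻¹ ∈ T := hTn.conj_mem _ t.2 g
  refine ⟨⟨g * (t : G) * g⁻¹, ht'⟩, ?_⟩
  rw [commT_apply]
  show g * (t : G) * g⁻¹ * h * (g * (t : G) * g⁻¹)⁻¹ * h⁻¹ = _
  have m1 : g * (t : G) * g⁻¹ * h * (g * (t : G) * g⁻¹)⁻¹ * h⁻¹ ∈ T :=
    commT_range_le T hTab h ⟨⟨g * (t : G) * g⁻¹, ht'⟩, rfl⟩
  have e1 : g * ((t : G) * h * (t : G)⁻¹ * h⁻¹) * g⁻¹ =
      ((g * (t : G) * g⁻¹) * (g * h * g⁻¹ * h⁻¹)) * h * (g * (t : G) * g⁻¹)⁻¹ * h⁻¹ *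
        (g * h * g⁻¹ * h⁻¹)⁻¹ := by group
  have e2 : (g * h * g⁻¹ * h⁻¹) * (g * (t : G) * g⁻¹) * h * (g * (t : G) * g⁻¹)⁻¹ * h⁻¹ *
        (g * h * g⁻¹ * h⁻¹)⁻¹ = ((g * h * g⁻¹ * h⁻¹) *
        (g * (t : G) * g⁻¹ * h * (g * (t : G) * g⁻¹)⁻¹ * h⁻¹)) * (g * h * g⁻¹ * h⁻¹)⁻¹ := by group
  rw [e1, hTab _ ht' _ hc, e2, hTab _ hc _ m1, mul_inv_cancel_right]

theorem commT_range_inf (T : Subgroup G) [T.Normal]
    (hTab : ∀ a ∈ T, ∀ b ∈ T, a * b = b * a) (hT : IsPGroup p T) (h : G)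
    (ho : ¬ p ∣ orderOf h) : (commT T hTab h).range ⊓ centralizer ({h} : Set G) = ⊥ := by
  rw [eq_bot_iff]
  rintro _ ⟨⟨t, rfl⟩, h2⟩
  rw [mem_bot]
  have hm : commT T hTab h t ∈ T := commT_range_le T hTab h ⟨t, rfl⟩
  obtain ⟨k, hk⟩ := hT ⟨_, hm⟩
  have hk' : (commT T hTab h t) ^ (p ^ k) = 1 := congrArg Subtype.val hk
  have h3 : commT T hTab h t ∈ centralizer ({h} : Set G) := h2
  rw [mem_cent_singleton] at h3
  rw [commT_apply] at hk' h3 ⊢
  exact comm_eq_one_of_commute h3 hk' ho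

theorem comm_mem_commutator (a b : G) : a * b * a⁻¹ * b⁻¹ ∈ commutator G := by
  rw [commutator_eq_closure]
  exact Subgroup.subset_closure (commutator_mem_commutatorSet a b)

/-- step (ii): a `p'`-element acting nontrivially on the normal Sylow `p`-subgroup -/
theorem step_ii [Finite G] (h : SF G) (T P : Subgroup G) [hTn : T.Normal] [hPn : P.Normal]
    (hcT : commutator G ≤ T) (hTab : ∀ a ∈ T, ∀ b ∈ T, a * b = b * a) (hTP : T ≤ P)
    (hP : IsPGroup p P) (y : G) (hy : ¬ p ∣ orderOf y)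
    (hyP : ¬ P ≤ centralizer ({y} : Set G)) :
    (∀ a ∈ P, ∀ b ∈ P, a * b = b * a) ∧ ∃ B : Subgroup G, B.Normal ∧ Nat.card B = p ∧ B ≤ T ∧
      B ⊓ centralizer ({y} : Set G) = ⊥ ∧ ∀ x ∈ P, x * y * x⁻¹ * y⁻¹ ∈ B := by
  have hT : IsPGroup p T := hP.to_le hTP
  -- `y` does not centralize `T`
  have h1 : ¬ T ≤ centralizer ({y} : Set G) := by
    intro hle
    apply hyP
    intro x hx
    rw [mem_cent_singleton]
    have hm : x * y * x⁻¹ * y⁻¹ ∈ T := hcT (comm_mem_commutator x y)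
    obtain ⟨k, hk⟩ := hT ⟨_, hm⟩
    have hk' : (x * y * x⁻¹ * y⁻¹) ^ (p ^ k) = 1 := congrArg Subtype.val hk
    have e := comm_eq_one_of_commute (mem_cent_singleton.1 (hle hm)) hk' hy
    have : x * y = (x * y * x⁻¹ * y⁻¹) * (y * x) := by group
    rw [this, e, one_mul]
  have h2 : (centralizer ({y} : Set G)).relIndex T = p := by
    rcases relIndex_cent_eq h T hT y with h3 | h3
    · exact absurd (relIndex_eq_one.1 h3) h1
    · exact h3
  have h4 : (centralizer ({y} : Set G)).relIndex P = p := by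
    rcases relIndex_cent_eq h P hP y with h3 | h3
    · exact absurd (relIndex_eq_one.1 h3) hyP
    · exact h3
  set B := (commT T hTab y).range with hBdef
  have hBn : B.Normal := commT_range_normal T hTab hcT y
  have hBc : Nat.card B = p := by rw [hBdef, card_commT_range, h2]
  have hBT : B ≤ T := commT_range_le T hTab y
  have hBy : B ⊓ centralizer ({y} : Set G) = ⊥ := commT_range_inf T hTab hT y hy
  have hBy' : ¬ B ≤ centralizer ({y} : Set G) := by
    intro hle
    rw [inf_eq_left.2 hle] at hBy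
    exact ne_bot_of_card_prime hBc hBy
  have hdec := exists_mul_of_relIndex_prime (centralizer ({y} : Set G)) B P (hBT.trans hTP) h4 hBy'
  have hcen := commute_of_card_prime P B hP (hBT.trans hTP) hBc
  -- `C_P(y)` is abelian
  have hab : ∀ u ∈ centralizer ({y} : Set G), u ∈ P → ∀ v ∈ centralizer ({y} : Set G), v ∈ P →
      u * v = v * u := by
    intro u hu huP v hv hvP
    have hcu : Commute u y := mem_cent_singleton.1 hu
    have hcop : (orderOf u).Coprime (orderOf y) := by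
      obtain ⟨k, hk⟩ := hP ⟨u, huP⟩
      have hk' : u ^ (p ^ k) = 1 := congrArg Subtype.val hk
      exact Nat.Coprime.coprime_dvd_left (orderOf_dvd_of_pow_eq_one hk')
        (Nat.Coprime.pow_left k ((Nat.Prime.coprime_iff_not_dvd Fact.out).2 hy))
    have hcent := centralizer_mul_of_coprime hcu hcop
    have hle1 : centralizer ({u * y} : Set G) ⊓ P ≤ centralizer ({y} : Set G) ⊓ P := by
      rw [hcent]
      exact inf_le_inf_right _ inf_le_right
    have h5 := relIndex_mul_relIndex _ _ P hle1 inf_le_right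
    rw [inf_relIndex_right, inf_relIndex_right, h4] at h5
    have h6 : (centralizer ({u * y} : Set G) ⊓ P).relIndex (centralizer ({y} : Set G) ⊓ P) = 1 := by
      rcases relIndex_cent_eq h P hP (u * y) with h7 | h7
      · rw [h7] at h5
        exact Nat.eq_one_of_mul_eq_one_right h5
      · rw [h7] at h5
        exact Nat.eq_of_mul_eq_mul_right (Fact.out : p.Prime).pos (by rw [h5, one_mul])
    have h8 := relIndex_eq_one.1 h6 (show v ∈ centralizer ({y} : Set G) ⊓ P from ⟨hv, hvP⟩)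
    have h9 : v ∈ centralizer ({u * y} : Set G) := h8.1
    rw [hcent] at h9
    exact (mem_cent_singleton.1 h9.1).symm
  refine ⟨?_, B, hBn, hBc, hBT, hBy, ?_⟩
  · intro a ha b hb
    obtain ⟨b1, hb1, c1, hc1, hc1P, rfl⟩ := hdec a ha
    obtain ⟨b2, hb2, c2, hc2, hc2P, rfl⟩ := hdec b hb
    have k1 : Commute b1 b2 := hTab _ (hBT hb1) _ (hBT hb2)
    have k2 : Commute c1 b2 := hcen c1 hc1P b2 hb2
    have k3 : Commute c2 b1 := hcen c2 hc2P b1 hb1
    have k4 : Commute c1 c2 := hab c1 hc1 hc1P c2 hc2 hc2P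
    exact (k1.mul_right k3.symm).mul_left (k2.mul_right k4)
  · intro x hx
    obtain ⟨b1, hb1, c1, hc1, hc1P, rfl⟩ := hdec x hx
    have hc : c1 * y = y * c1 := mem_cent_singleton.1 hc1
    have e : b1 * c1 * y * (b1 * c1)⁻¹ * y⁻¹ = b1 * (c1 * y) * c1⁻¹ * b1⁻¹ * y⁻¹ := by group
    have e2 : b1 * (y * c1) * c1⁻¹ * b1⁻¹ * y⁻¹ = b1 * (y * b1⁻¹ * y⁻¹) := by group
    rw [e, hc, e2]
    exact B.mul_mem hb1 (hBn.conj_mem _ (B.inv_mem hb1) y)

/-- step (iv): two elements acting through different lines give a class size divisible by `p²` -/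
theorem step_iv [Finite G] (h : SF G) (T : Subgroup G) [hTn : T.Normal] (hT : Nat.card T = p ^ 2)
    (B B' : Subgroup G) [hBn : B.Normal] [hBn' : B'.Normal] (hB : Nat.card B = p)
    (hB' : Nat.card B' = p) (hBT : B ≤ T) (hBT' : B' ≤ T) (y k : G)
    (hBy : B ⊓ centralizer ({y} : Set G) = ⊥) (hBk : B' ⊓ centralizer ({k} : Set G) = ⊥)
    (hy : ∀ x ∈ T, x * y * x⁻¹ * y⁻¹ ∈ B) (hk : ∀ x ∈ T, x * k * x⁻¹ * k⁻¹ ∈ B') : B = B' := by
  by_contra hne
  have hTp : IsPGroup p T := IsPGroup.of_card hT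
  have hdisj : ∀ z ∈ B, z ∈ B' → z = 1 := by
    intro z hz hz'
    by_contra hz1
    exact hne (le_antisymm (le_of_mem_of_card_prime hB hz hz1 hz')
      (le_of_mem_of_card_prime hB' hz' hz1 hz))
  -- `y` centralizes `B'` and `k` centralizes `B`
  have c1 : ∀ b ∈ B', y * b * y⁻¹ = b := by
    intro b hb
    have m1 : b * y * b⁻¹ * y⁻¹ ∈ B := hy b (hBT' hb)
    have m2 : b * y * b⁻¹ * y⁻¹ ∈ B' := by
      have : b * y * b⁻¹ * y⁻¹ = b * (y * b⁻¹ * y⁻¹) := by group
      rw [this]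
      exact B'.mul_mem hb (hBn'.conj_mem _ (B'.inv_mem hb) y)
    have e := hdisj _ m1 m2
    have : y * b * y⁻¹ = (b * y * b⁻¹ * y⁻¹)⁻¹ * b := by group
    rw [this, e, inv_one, one_mul]
  have c2 : ∀ b ∈ B, k * b * k⁻¹ = b := by
    intro b hb
    have m1 : b * k * b⁻¹ * k⁻¹ ∈ B' := hk b (hBT hb)
    have m2 : b * k * b⁻¹ * k⁻¹ ∈ B := by
      have : b * k * b⁻¹ * k⁻¹ = b * (k * b⁻¹ * k⁻¹) := by group
      rw [this]
      exact B.mul_mem hb (hBn.conj_mem _ (B.inv_mem hb) k)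
    have e := hdisj _ m2 m1
    have : k * b * k⁻¹ = (b * k * b⁻¹ * k⁻¹)⁻¹ * b := by group
    rw [this, e, inv_one, one_mul]
  -- `T = B B'`
  have hrel : B'.relIndex T = p := by
    have h1 := relIndex_mul_relIndex ⊥ B' T bot_le hBT'
    rw [relIndex_bot_left, relIndex_bot_left, hB', hT, sq] at h1
    exact Nat.eq_of_mul_eq_mul_left (Fact.out : p.Prime).pos h1
  have hnle : ¬ B ≤ B' := by
    intro hle
    obtain ⟨⟨z, hz⟩, hz1'⟩ := Subgroup.ne_bot_iff_exists_ne_one.1 (ne_bot_of_card_prime hB)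
    exact hz1' (Subtype.ext (hdisj z hz (hle hz)))
  have hdec := exists_mul_of_relIndex_prime B' B T hBT hrel hnle
  -- `C_T(y k) = 1`
  have hbot : centralizer ({y * k} : Set G) ⊓ T = ⊥ := by
    rw [eq_bot_iff]
    rintro t ⟨ht1, ht2⟩
    rw [mem_bot]
    have ht1' : t ∈ centralizer ({y * k} : Set G) := ht1
    rw [mem_cent_singleton] at ht1'
    obtain ⟨b, hb, b', hb', -, rfl⟩ := hdec t ht2
    have e1 : (y * k) * (b * b') * (y * k)⁻¹ = b * b' := by
      rw [← ht1']; group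
    have e2 : (y * k) * (b * b') * (y * k)⁻¹ = (y * (k * b * k⁻¹) * y⁻¹) * (y * (k * b' * k⁻¹) * y⁻¹) := by
      group
    rw [e2, c2 b hb, c1 _ (hBn'.conj_mem _ hb' k)] at e1
    have e3 : b⁻¹ * (y * b * y⁻¹) = b' * (k * b' * k⁻¹)⁻¹ := by
      have : y * b * y⁻¹ = b * b' * (k * b' * k⁻¹)⁻¹ := by rw [← e1]; group
      rw [this]; group
    have m1 : b⁻¹ * (y * b * y⁻¹) ∈ B := B.mul_mem (B.inv_mem hb) (hBn.conj_mem _ hb y)
    have m2 : b' * (k * b' * k⁻¹)⁻¹ ∈ B' := B'.mul_mem hb' (B'.inv_mem (hBn'.conj_mem _ hb' k))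
    have z1 : b⁻¹ * (y * b * y⁻¹) = 1 := hdisj _ m1 (e3 ▸ m2)
    have z2 : b' * (k * b' * k⁻¹)⁻¹ = 1 := e3 ▸ z1
    have hb1 : b = 1 := by
      have : b ∈ B ⊓ centralizer ({y} : Set G) := by
        refine ⟨hb, ?_⟩
        show b ∈ centralizer ({y} : Set G)
        rw [mem_cent_singleton]
        have : y * b = b * (b⁻¹ * (y * b * y⁻¹)) * y := by group
        rw [this, z1, mul_one]
      rwa [hBy, mem_bot] at this
    have hb1' : b' = 1 := by
      have : b' ∈ B' ⊓ centralizer ({k} : Set G) := by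
        refine ⟨hb', ?_⟩
        show b' ∈ centralizer ({k} : Set G)
        rw [mem_cent_singleton]
        have : b' * k = (b' * (k * b' * k⁻¹)⁻¹) * (k * b') := by group
        rw [this, z2, one_mul]
      rwa [hBk, mem_bot] at this
    rw [hb1, hb1', one_mul]
  have hidx : (centralizer ({y * k} : Set G)).relIndex T = p ^ 2 := by
    rw [← inf_relIndex_right, hbot, relIndex_bot_left, hT]
  have hp := (Fact.out : p.Prime)
  rcases relIndex_cent_eq h T hTp (y * k) with h1 | h1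
  · rw [hidx] at h1
    have := hp.one_lt
    nlinarith
  · rw [hidx] at h1
    have := hp.one_lt
    nlinarith

/-- the commutator subgroup of `G = P H` -/
theorem commutator_le_of_factor (P H B : Subgroup G) [hBn : B.Normal]
    (hPH : ∀ g : G, ∃ x ∈ P, ∃ k ∈ H, g = x * k)
    (h1 : ∀ a ∈ P, ∀ b ∈ P, a * b * a⁻¹ * b⁻¹ ∈ B)
    (h2 : ∀ a ∈ P, ∀ k ∈ H, a * k * a⁻¹ * k⁻¹ ∈ B)
    (h3 : ∀ a ∈ H, ∀ b ∈ H, a * b = b * a) : commutator G ≤ B := by
  have key : ∀ a b : G, a * b * a⁻¹ * b⁻¹ ∈ B →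
      Commute (QuotientGroup.mk' B a) (QuotientGroup.mk' B b) := by
    intro a b hab
    have e : QuotientGroup.mk' B (a * b * a⁻¹ * b⁻¹) = 1 := (QuotientGroup.eq_one_iff _).2 hab
    have e2 : QuotientGroup.mk' B (a * b) = QuotientGroup.mk' B (a * b * a⁻¹ * b⁻¹) *
        QuotientGroup.mk' B (b * a) := by
      rw [← map_mul]; congr 1; group
    rw [e, one_mul, map_mul, map_mul] at e2
    exact e2
  rw [commutator_eq_closure, closure_le]
  rintro _ ⟨g1, g2, rfl⟩
  obtain ⟨x1, hx1, k1, hk1, rfl⟩ := hPH g1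
  obtain ⟨x2, hx2, k2, hk2, rfl⟩ := hPH g2
  rw [SetLike.mem_coe, ← QuotientGroup.eq_one_iff, ← QuotientGroup.mk'_apply,
    map_commutatorElement, commutatorElement_eq_one_iff_commute, map_mul, map_mul]
  have q1 := key x1 x2 (h1 x1 hx1 x2 hx2)
  have q2 := key x1 k2 (h2 x1 hx1 k2 hk2)
  have q3 := key x2 k1 (h2 x2 hx2 k1 hk1)
  have q4 : Commute (QuotientGroup.mk' B k1) (QuotientGroup.mk' B k2) :=
    (show Commute k1 k2 from h3 k1 hk1 k2 hk2).map _
  exact (q1.mul_right q2).mul_left (q3.symm.mul_right q4)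

/-- **Q3**: square-free class sizes exclude `|G'| = p²`. -/
theorem core_false [Finite G] (h : SF G) (hT : Nat.card (commutator G) = p ^ 2) : False := by
  have hp := (Fact.out : p.Prime)
  have hTp : IsPGroup p (commutator G) := IsPGroup.of_card hT
  have hTab : ∀ a ∈ commutator G, ∀ b ∈ commutator G, a * b = b * a := by
    intro a ha b hb
    have := IsPGroup.commutative_of_card_eq_prime_sq hT ⟨a, ha⟩ ⟨b, hb⟩
    exact congrArg Subtype.val this
  obtain ⟨P, hTP⟩ := hTp.exists_le_sylow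
  have hPn : (P : Subgroup G).Normal := by
    constructor
    intro x hx g
    have : g * x * g⁻¹ = (g * x * g⁻¹ * x⁻¹) * x := by group
    rw [this]
    exact (P : Subgroup G).mul_mem (hTP (comm_mem_commutator g x)) hx
  obtain ⟨H, hH⟩ := exists_right_complement'_of_coprime (N := (P : Subgroup G)) P.card_coprime_index
  have hPH : ∀ g : G, ∃ x ∈ (P : Subgroup G), ∃ k ∈ H, g = x * k := by
    intro g
    have : g ∈ (P : Subgroup G) ⊔ H := hH.sup_eq_top ▸ mem_top g
    obtain ⟨x, hx, k, hk, e⟩ := mem_sup_of_normal_left.1 this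
    exact ⟨x, hx, k, hk, e.symm⟩
  have hHab : ∀ a ∈ H, ∀ b ∈ H, a * b = b * a := by
    intro a ha b hb
    have m1 : a * b * a⁻¹ * b⁻¹ ∈ (P : Subgroup G) := hTP (comm_mem_commutator a b)
    have m2 : a * b * a⁻¹ * b⁻¹ ∈ H := H.mul_mem (H.mul_mem (H.mul_mem ha hb) (H.inv_mem ha)) (H.inv_mem hb)
    have e : a * b * a⁻¹ * b⁻¹ = 1 := by
      have := hH.disjoint.le_bot (show a * b * a⁻¹ * b⁻¹ ∈ (P : Subgroup G) ⊓ H from ⟨m1, m2⟩)
      exact this
    have : a * b = (a * b * a⁻¹ * b⁻¹) * (b * a) := by group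
    rw [this, e, one_mul]
  have hHp : ∀ k ∈ H, ¬ p ∣ orderOf k := by
    intro k hk hd
    have h1 : orderOf k ∣ Nat.card H := by
      have := orderOf_dvd_natCard (⟨k, hk⟩ : H)
      rwa [Subgroup.orderOf_mk] at this
    have h2 : Nat.card H = (P : Subgroup G).index := by
      have := hH.symm.index_eq_card
      exact this.symm
    exact P.not_dvd_index (h2 ▸ hd.trans h1)
  have fin : ∀ B : Subgroup G, commutator G ≤ B → Nat.card B ∣ p → False := by
    intro B hle hd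
    have h1 := (Subgroup.card_dvd_of_le hle).trans hd
    rw [hT] at h1
    have h2 := Nat.le_of_dvd hp.pos h1
    have := hp.one_lt
    nlinarith
  by_cases hcen : ∀ k ∈ H, (P : Subgroup G) ≤ centralizer ({k} : Set G)
  · -- `G' = P'`
    have hBn : (⁅(P : Subgroup G), (P : Subgroup G)⁆).Normal := inferInstance
    apply fin ⁅(P : Subgroup G), (P : Subgroup G)⁆
    · apply commutator_le_of_factor (P : Subgroup G) H _ hPH _ _ hHab
      · intro a ha b hb
        exact commutator_mem_commutator ha hb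
      · intro a ha k hk
        have := mem_cent_singleton.1 (hcen k hk ha)
        rw [this]
        have : k * a * a⁻¹ * k⁻¹ = 1 := by group
        rw [this]; exact one_mem _
    · have hq := card_commutator_dvd_of_breadth_one (p := p) (P := (P : Subgroup G)) P.2
        (fun x => (SF.subgroup h (P : Subgroup G)).not_sq_dvd hp x)
      have e : (commutator (P : Subgroup G)).map (P : Subgroup G).subtype =
          ⁅(P : Subgroup G), (P : Subgroup G)⁆ := by
        rw [commutator_def, map_commutator, ← MonoidHom.range_eq_map, range_subtype]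
      rw [← e, card_map_of_injective (subtype_injective _)]
      exact hq
  · push Not at hcen
    obtain ⟨y, hyH, hyP⟩ := hcen
    obtain ⟨hPab, B, hBn, hBc, hBT, hBy, hBx⟩ :=
      step_ii h (commutator G) (P : Subgroup G) le_rfl hTab hTP P.2 y (hHp y hyH) hyP
    apply fin B _ (hBc ▸ dvd_rfl)
    apply commutator_le_of_factor (P : Subgroup G) H _ hPH _ _ hHab
    · intro a ha b hb
      rw [hPab a ha b hb]
      have : b * a * a⁻¹ * b⁻¹ = 1 := by group
      rw [this]; exact one_mem _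
    · intro a ha k hk
      by_cases hkP : (P : Subgroup G) ≤ centralizer ({k} : Set G)
      · have := mem_cent_singleton.1 (hkP ha)
        rw [this]
        have : k * a * a⁻¹ * k⁻¹ = 1 := by group
        rw [this]; exact one_mem _
      · obtain ⟨-, B', hBn', hBc', hBT', hBk, hBx'⟩ :=
          step_ii h (commutator G) (P : Subgroup G) le_rfl hTab hTP P.2 k (hHp k hk) hkP
        have := step_iv h (commutator G) hT B B' hBc hBc' hBT hBT' y k hBy hBk
          (fun x hx => hBx x (hTP hx)) (fun x hx => hBx' x (hTP hx))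
        rw [this]
        exact hBx' a ha

end Cfsg.Agent.Lib.Helper7.SqFree
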