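import Cfsg.Agent.Lib.Helper7.SharpSimple
import Cfsg.Agent.Lib.Helper27.M24Order

set_option autoImplicit false
set_option linter.style.haveILetI false

namespace Cfsg.Agent.Lib.Helper7

open Cfsg Cfsg.Agent.Lib.Helper27 Subgroup MulAction
open scoped Pointwise

/-- a self-centralising element of prime order `p`, `p² ∤ |G|`, generates a Sylow subgroup with
centraliser of order `p`. -/
theorem exists_sylow_of_self_centralizing {G : Type*} [Group G] [Finite G] (p : ℕ) [Fact p.Prime]
    (x : G) (hx : orderOf x = p) (hp2 : ¬ p ^ 2 ∣ Nat.card G)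
    (hC : ∀ c : G, c * x = x * c → c ∈ zpowers x) :
    ∃ P : Sylow p G, Nat.card P = p ∧ Nat.card (centralizer (P : Set G)) = p := by
  have hpg : IsPGroup p (zpowers x) := by
    apply IsPGroup.of_card (n := 1)
    rw [Nat.card_zpowers, hx, pow_one]
  obtain ⟨P, hP⟩ := hpg.exists_le_sylow
  have hdvd : p ∣ Nat.card G := hx ▸ orderOf_dvd_natCard x
  have hPc : Nat.card P = p := card_sylow_eq_prime p P hdvd hp2
  have hPe : zpowers x = P := by
    apply Subgroup.eq_of_le_of_card_ge hP
    rw [Nat.card_zpowers, hx]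
    exact hPc.le
  refine ⟨P, hPc, ?_⟩
  have : centralizer (P : Set G) = zpowers x := by
    apply le_antisymm
    · intro c hc
      rw [mem_centralizer_iff] at hc
      apply hC
      have hxP : x ∈ (P : Set G) := by
        have : x ∈ (P : Subgroup G) := hPe ▸ mem_zpowers x
        exact this
      exact (hc x hxP).symm
    · intro c hc
      rw [mem_centralizer_iff]
      intro h hh
      have hh' : h ∈ zpowers x := by rw [hPe]; exact hh
      obtain ⟨i, rfl⟩ := mem_zpowers_iff.1 hc
      obtain ⟨j, rfl⟩ := mem_zpowers_iff.1 hh'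
      rw [← zpow_add, ← zpow_add, add_comm]
  rw [this, Nat.card_zpowers, hx]

/-- point stabiliser inside a fixer is the next fixer -/
def stabFixerEquiv (L : List ℕ) {b : ℕ} (hb : b < 24) :
    MulAction.stabilizer (fixer L) (pt b) ≃* fixer (2 ^ b :: L) where
  toFun g := ⟨g.1.1, mem_fixer_cons.2 ⟨g.1.2, (smul_unmask_two_pow hb _).2 g.2⟩⟩
  invFun g := ⟨⟨g.1, (mem_fixer_cons.1 g.2).1⟩,
    (smul_unmask_two_pow hb _).1 (mem_fixer_cons.1 g.2).2⟩
  left_inv _ := rfl
  right_inv _ := rfl
  map_mul' _ _ := rfl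

/-- data for the criteria: `fixer L` acting on the invariant set `unmask A`. -/
theorem fixer_h2 (L : List ℕ) {b b' : ℕ} (hb : b < 24) (A A' : ℕ)
    (htr' : ∀ q ∈ unmask A', ∃ g ∈ fixer (2 ^ b :: L), g (pt b') = q)
    (hAA' : ∀ z : GolayPt, z ∈ unmask A → z ≠ pt b → z ∈ unmask A') :
    ∀ z ∈ (unmask A : Set GolayPt), z ≠ pt b → ∀ z' ∈ (unmask A : Set GolayPt), z' ≠ pt b →
      ∃ g : fixer L, g • pt b = pt b ∧ g • z = z' := by
  intro z hz hzb z' hz' hzb'
  obtain ⟨g1, hg1, h1⟩ := htr' z (hAA' z hz hzb)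
  obtain ⟨g2, hg2, h2⟩ := htr' z' (hAA' z' hz' hzb')
  have hg : g2 * g1⁻¹ ∈ fixer (2 ^ b :: L) := (fixer _).mul_mem hg2 ((fixer _).inv_mem hg1)
  refine ⟨⟨g2 * g1⁻¹, (mem_fixer_cons.1 hg).1⟩, ?_, ?_⟩
  · exact (smul_unmask_two_pow hb _).1 (mem_fixer_cons.1 hg).2
  · change (g2 * g1⁻¹) z = z'
    rw [← h1, ← h2]
    simp

theorem fixer_htrans (L : List ℕ) {b : ℕ} (A : ℕ)
    (htr : ∀ q ∈ unmask A, ∃ g ∈ fixer L, g (pt b) = q) :
    ∀ z ∈ (unmask A : Set GolayPt), ∃ g : fixer L, g • pt b = z := by
  intro z hz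
  obtain ⟨g, hg, h⟩ := htr z hz
  exact ⟨⟨g, hg⟩, h⟩

theorem fixer_hinv (L : List ℕ) (A : ℕ) (hA : IsInv L A) :
    ∀ g : fixer L, ∀ z ∈ (unmask A : Set GolayPt), g • z ∈ (unmask A : Set GolayPt) :=
  fun g _ hz => hA.apply_mem hz g.2

instance fixer_finite (L : List ℕ) : Finite (fixer L) := inferInstance

theorem simple_fixer_L1 : IsSimpleGroup (fixer L1) := by
  haveI : Fact (Nat.Prime 23) := ⟨by norm_num⟩
  apply isSimpleGroup_of_prime_degree (unmask 8388607 : Set GolayPt) (pt 0) (by decide +kernel)
    (fixer_hinv L1 _ inv1) (fixer_htrans L1 _ trans1)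
    (fixer_h2 L1 (by norm_num) 8388607 8388606 trans2 (by decide +kernel))
    _ 23 11 10200960 (by norm_num) _ card_fixer_L1 (by norm_num) (by norm_num) (by norm_num)
    (by decide)
  · intro g hg
    apply Subtype.ext
    apply Equiv.ext
    intro p
    by_cases hp : p ∈ unmask 8388607
    · exact hg p hp
    · have : p = pt 23 := by
        revert p; decide +kernel
      rw [this]
      exact (smul_unmask_two_pow (by norm_num) _).1 (g.2.2 (2 ^ 23) (by simp [L1]))
  · rw [Set.ncard_coe_finset, card_unmask]; decide +kernel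


theorem simple_fixer_nil : IsSimpleGroup (fixer []) := by
  apply isSimpleGroup_of_two_transitive (unmask 16777215 : Set GolayPt) (pt 23) (by decide +kernel)
    (fixer_hinv [] _ (isInv_full [])) (fixer_htrans [] _ trans0)
    (fixer_h2 [] (by norm_num) 16777215 8388607 trans1 (by decide +kernel))
  · intro g hg
    apply Subtype.ext
    apply Equiv.ext
    intro p
    exact hg p (by rw [unmask_full]; exact Finset.mem_coe.2 (Finset.mem_univ p))
  · rw [Set.ncard_coe_finset, card_unmask]
    have : pc 16777215 = 24 := by decide +kernel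
    rw [this]
    exact not_isPrimePow_of_dvd (p := 2) (q := 3) (by norm_num) (by norm_num) (by norm_num)
      (by norm_num) (by norm_num)
  · haveI : IsSimpleGroup (fixer (2 ^ 23 :: [])) := simple_fixer_L1
    exact (stabFixerEquiv [] (b := 23) (by norm_num)).isSimpleGroup

theorem simple_M24 : IsSimpleGroup M24 := by
  have := simple_fixer_nil
  rwa [fixer_nil] at this

/-! ### M22 -/

/-- code of `t ↦ 2 t` -/
def cx11 : ℕ := 983435072843990828779021698901151808

theorem cx11_check : checkFix L2 cx11 = true := by decide +kernel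

theorem cx11_valid : validCode cx11 = true := valid_of_checkFix cx11_check

/-- the codewords invariant under `t ↦ 2t` -/
theorem cx11_inv_words : ∀ m, isCode m = true → permMask cx11 m = m →
    m = 0 ∨ m = 16436384 ∨ m = 340831 ∨ m = 16777215 := by
  have h := forall_isCode (fun m => (!(Nat.beq (permMask cx11 m) m)) || (Nat.beq m 0 || Nat.beq m 16436384
    || Nat.beq m 340831 || Nat.beq m 16777215)) (by decide +kernel)
  intro m hm hfix
  have := h m hm
  have hb : Nat.beq (permMask cx11 m) m = true := by rw [Nat.beq_eq]; exact hfix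
  rw [hb] at this
  simp only [Bool.or_eq_true, Bool.not_true, Nat.beq_eq, Bool.false_eq_true, false_or] at this
  tauto


theorem cx11_orbit : ∀ q ∈ unmask 340830, ∃ g ∈ zpowers (permOf cx11), g (pt 1) = q := by
  have h := (orbIter_sound (zpowers (permOf cx11)) (b := 1) (by norm_num) [cx11]
    (fun c hc => by
      rw [List.mem_singleton] at hc
      subst hc
      exact ⟨cx11_valid, mem_zpowers _⟩) 10).2
  have e : orbIter [cx11] (2 ^ 1) 10 = 340830 := by decide +kernel
  rwa [e] at h

theorem centralizer_cx11 (c : Equiv.Perm GolayPt) (hc : c ∈ fixer L2)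
    (hcomm : c * permOf cx11 = permOf cx11 * c) : c ∈ zpowers (permOf cx11) := by
  set x := permOf cx11 with hx
  have hc0 : c (pt 0) = pt 0 := (smul_unmask_two_pow (by norm_num) _).1 (hc.2 (2 ^ 0) (by simp [L2]))
  have hc23 : c (pt 23) = pt 23 :=
    (smul_unmask_two_pow (by norm_num) _).1 (hc.2 (2 ^ 23) (by simp [L2]))
  -- step 1: c fixes the dodecad D
  have hD : unmask 340831 ∈ supports (golayCode : Set (GolayPt → ZMod 2)) := by
    rw [mem_supports_iff, mask_unmask (by norm_num)]; decide +kernel
  have hxD : x • unmask 340831 = unmask 340831 := by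
    rw [hx, smul_unmask_permOf cx11_valid (by norm_num)]
    congr 1
  have hcD := smul_mem_supports hc.1 hD
  have hfix : permMask cx11 (mask (c • unmask 340831)) = mask (c • unmask 340831) := by
    rw [← mask_smul_permOf cx11_valid, ← hx, ← mul_smul, ← hcomm, mul_smul, hxD]
  have hcases := cx11_inv_words _ ((mem_supports_iff _).1 hcD) hfix
  have hcard : pc (mask (c • unmask 340831)) = 12 := by
    rw [← card_eq_pc, Finset.card_smul_finset, card_unmask]; decide +kernel
  have hbit : (mask (c • unmask 340831)).testBit (idx (pt 0)) = true := by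
    rw [← mem_iff_testBit, ← hc0]
    exact Finset.smul_mem_smul_finset (by decide +kernel)
  have hcD' : c • unmask 340831 = unmask 340831 := by
    rw [eq_unmask_iff (by norm_num)]
    rcases hcases with h | h | h | h
    · rw [h] at hcard; exfalso; revert hcard; decide +kernel
    · rw [h] at hbit; exfalso; revert hbit; decide +kernel
    · exact h
    · rw [h] at hcard; exfalso; revert hcard; decide +kernel
  -- step 2
  have h1 : c (pt 1) ∈ unmask 340830 := by
    have h2 : c (pt 1) ∈ unmask 340831 := by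
      rw [← hcD']
      exact Finset.smul_mem_smul_finset (by decide +kernel)
    have h3 : c (pt 1) ≠ pt 0 := by
      intro h
      rw [← hc0] at h
      have := c.injective h
      revert this; decide +kernel
    have : ∀ z : GolayPt, z ∈ unmask 340831 → z ≠ pt 0 → z ∈ unmask 340830 := by decide +kernel
    exact this _ h2 h3
  obtain ⟨g, hg, hg1⟩ := cx11_orbit _ h1
  have hcommz : ∀ h ∈ zpowers x, c * h = h * c := by
    intro h hh
    obtain ⟨k, rfl⟩ := mem_zpowers_iff.1 hh
    exact (Commute.zpow_right (show Commute c x from hcomm) k)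
  have hgM : g ∈ fixer L2 := by
    have : zpowers x ≤ fixer L2 := by
      rw [zpowers_le]; exact permOf_mem_fixer cx11_check
    exact this hg
  have hc1 : g⁻¹ * c = 1 := by
    apply checkRigid_sound [(8398155, 8398155), (5279, 5279), (69395, 69395), (10558, 10558),
      (18147, 18147), (36294, 36294), (133817, 133817), (525274, 525274), (1050548, 1050548),
      (2101096, 2101096), (4196943, 4196943)] 8729439 (by decide +kernel) _
      (M24.mul_mem (M24.inv_mem hgM.1) hc.1)
    intro p hp
    have hsplit : ∀ z : GolayPt, z ∈ unmask 8729439 → z = pt 0 ∨ z = pt 23 ∨ z ∈ unmask 340830 := by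
      decide +kernel
    have hg0 : g (pt 0) = pt 0 := (smul_unmask_two_pow (by norm_num) _).1 (hgM.2 (2 ^ 0) (by simp [L2]))
    have hg23 : g (pt 23) = pt 23 :=
      (smul_unmask_two_pow (by norm_num) _).1 (hgM.2 (2 ^ 23) (by simp [L2]))
    rcases hsplit p hp with rfl | rfl | hpA
    · rw [Equiv.Perm.mul_apply, hc0, Equiv.Perm.inv_eq_iff_eq, hg0]
    · rw [Equiv.Perm.mul_apply, hc23, Equiv.Perm.inv_eq_iff_eq, hg23]
    · obtain ⟨h, hh, rfl⟩ := cx11_orbit _ hpA
      rw [Equiv.Perm.mul_apply, Equiv.Perm.inv_eq_iff_eq, ← Equiv.Perm.mul_apply, hcommz h hh,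
        Equiv.Perm.mul_apply, ← hg1, ← Equiv.Perm.mul_apply, ← Equiv.Perm.mul_apply]
      obtain ⟨i, rfl⟩ := mem_zpowers_iff.1 hg
      obtain ⟨j, rfl⟩ := mem_zpowers_iff.1 hh
      rw [← zpow_add, ← zpow_add, add_comm]
  rw [inv_mul_eq_one] at hc1
  rw [← hc1]; exact hg


theorem permOf_coe {c : ℕ} (h : validCode c = true) : ⇑(permOf c) = permFun c := by
  funext p; exact permOf_apply h p

theorem orderOf_cx11 : orderOf (permOf cx11) = 11 := by
  haveI : Fact (Nat.Prime 11) := ⟨by norm_num⟩
  apply orderOf_eq_prime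
  · apply Equiv.ext
    intro p
    rw [← Equiv.Perm.iterate_eq_pow, permOf_coe cx11_valid]
    revert p
    decide +kernel
  · intro h
    have := congrArg (fun f : Equiv.Perm GolayPt => f (pt 1)) h
    simp only [Equiv.Perm.coe_one, id_eq] at this
    rw [permOf_apply cx11_valid] at this
    revert this
    decide +kernel

theorem simple_fixer_L2 : IsSimpleGroup (fixer L2) := by
  haveI : Fact (Nat.Prime 11) := ⟨by norm_num⟩
  set x' : fixer L2 := ⟨permOf cx11, permOf_mem_fixer cx11_check⟩ with hx'
  have hord : orderOf x' = 11 := by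
    rw [← orderOf_cx11, ← Subgroup.orderOf_coe]
  obtain ⟨P, hP, hPc⟩ := exists_sylow_of_self_centralizing 11 x' hord
    (by rw [card_fixer_L2]; norm_num) (by
      intro c hc
      have h1 := centralizer_cx11 c.1 c.2 (congrArg Subtype.val hc)
      obtain ⟨k, hk⟩ := mem_zpowers_iff.1 h1
      rw [mem_zpowers_iff]
      exact ⟨k, Subtype.ext (by rw [Subgroup.coe_zpow]; exact hk)⟩)
  apply isSimpleGroup_of_sylow_prime 11 5 (by norm_num) P hP
  · intro N hN hbot
    obtain ⟨m, hm, hmy⟩ := exists_mem_normal_moving N hbot (unmask 8388606 : Set GolayPt) (pt 1)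
      (fixer_htrans L2 _ trans2) (by
        intro g hg
        apply Subtype.ext
        apply Equiv.ext
        intro p
        by_cases hp : p ∈ unmask 8388606
        · exact hg p hp
        · have : p = pt 23 ∨ p = pt 0 := by
            revert p; decide +kernel
          rcases this with rfl | rfl
          · exact (smul_unmask_two_pow (by norm_num) _).1 (g.2.2 (2 ^ 23) (by simp [L2]))
          · exact (smul_unmask_two_pow (by norm_num) _).1 (g.2.2 (2 ^ 0) (by simp [L2])))
    have h1 := card_dvd_of_orbit_eq N (unmask 8388606 : Set GolayPt) (pt 1)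
      (orbit_normal_eq N _ (pt 1) (by decide +kernel) (fixer_hinv L2 _ inv2)
        (fixer_h2 L2 (by norm_num) 8388606 8388604 trans3 (by decide +kernel)) m hm hmy)
    rw [Set.ncard_coe_finset, card_unmask] at h1
    have h2 : pc 8388606 = 22 := by decide +kernel
    rw [h2] at h1
    exact dvd_trans (by norm_num) h1
  · apply card_normalizer_eq_of_numeric 11 5 1 443520 P hP card_fixer_L2 _ one_ne_zero (by decide)
    rw [hPc]
  · rw [card_fixer_L2]; norm_num

end Cfsg.Agent.Lib.Helper7
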