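/-
Sharply 4- and 5-transitive groups of degree 11 and 12 are simple (helper7).
-/
import Cfsg.Agent.Lib.Helper7.SimpleCrit

set_option autoImplicit false
set_option linter.style.haveILetI false

namespace Cfsg.Agent.Lib.Helper7

open Subgroup MulAction

theorem not_isPrimePow_of_dvd {n p q : ℕ} (hp : p.Prime) (hq : q.Prime) (hpq : p ≠ q)
    (h1 : p ∣ n) (h2 : q ∣ n) : ¬ IsPrimePow n := by
  intro h
  rw [isPrimePow_iff_unique_prime_dvd] at h
  obtain ⟨r, _, hr⟩ := h
  exact hpq ((hr p ⟨hp, h1⟩).trans (hr q ⟨hq, h2⟩).symm)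

variable {G : Type*} [Group G] {X : Type*} [MulAction G X]

theorem card_of_sharply_transitive [Finite X] {n : ℕ} [IsMultiplyPretransitive G X n]
    (x : Fin n ↪ X) (h : stabilizer G x = ⊥) : Nat.card G = (Nat.card X).descFactorial n := by
  have h1 := MulAction.index_stabilizer_of_transitive G x
  rw [h, index_bot] at h1
  rw [h1]
  have := Fintype.ofFinite X
  rw [Nat.card_eq_fintype_card, Fintype.card_embedding_eq, Fintype.card_fin, Nat.card_eq_fintype_card]

theorem exists_embedding_of_le [Finite X] {n : ℕ} (h : n ≤ Nat.card X) : Nonempty (Fin n ↪ X) := by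
  have := Fintype.ofFinite X
  apply Function.Embedding.nonempty_of_card_le
  rw [Fintype.card_fin, ← Nat.card_eq_fintype_card]; exact h

theorem faithful_of_sharp {n : ℕ} (x : Fin n ↪ X) (h : stabilizer G x = ⊥) (g : G)
    (hg : ∀ z : X, g • z = z) : g = 1 := by
  have : g ∈ stabilizer G x := by
    rw [mem_stabilizer_iff]
    ext i
    exact hg _
  rw [h] at this
  exact this

theorem sharp4_deg11 (hX : Nat.card X = 11) [IsMultiplyPretransitive G X 4]
    (hsharp : ∀ x : Fin 4 ↪ X, stabilizer G x = ⊥) : IsSimpleGroup G ∧ Nat.card G = 7920 := by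
  have hfin : Finite X := Nat.finite_of_card_ne_zero (by rw [hX]; norm_num)
  obtain ⟨x⟩ := exists_embedding_of_le (X := X) (n := 4) (by rw [hX]; norm_num)
  have hcard : Nat.card G = 7920 := by
    rw [card_of_sharply_transitive x (hsharp x), hX]; rfl
  have hGfin : Finite G := Nat.finite_of_card_ne_zero (by rw [hcard]; norm_num)
  refine ⟨?_, hcard⟩
  have h2t : IsMultiplyPretransitive G X 2 :=
    isMultiplyPretransitive_of_le (n := 4) (by norm_num) (by rw [hX]; norm_num)
  have h1t : IsPretransitive G X := isPretransitive_of_is_two_pretransitive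
  rw [is_two_pretransitive_iff] at h2t
  haveI : Fact (Nat.Prime 11) := ⟨by norm_num⟩
  apply isSimpleGroup_of_prime_degree (Set.univ : Set X) (x 0) (Set.mem_univ _)
    (fun _ _ _ => Set.mem_univ _) (fun z _ => exists_smul_eq G _ z)
    (fun z _ hz z' _ hz' => h2t hz.symm hz'.symm)
    (fun g hg => faithful_of_sharp x (hsharp x) g (fun z => hg z (Set.mem_univ _)))
    11 5 7920 (by norm_num) (by rw [Set.ncard_univ, hX]) hcard (by norm_num) (by norm_num) (by norm_num)
  decide

/-- the point stabiliser of a sharply `(n+1)`-transitive group is sharply `n`-transitive on the rest -/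
theorem sharp_ofStabilizer {n : ℕ} (hsharp : ∀ x : Fin (n+1) ↪ X, stabilizer G x = ⊥) (a : X)
    (x : Fin n ↪ SubMulAction.ofStabilizer G a) : stabilizer (stabilizer G a) x = ⊥ := by
  rw [eq_bot_iff]
  intro g hg
  rw [mem_bot]
  apply Subtype.ext
  have : (g : G) ∈ stabilizer G (SubMulAction.ofStabilizer.snoc x) := by
    rw [mem_stabilizer_iff] at hg ⊢
    ext i
    rcases Fin.eq_castSucc_or_eq_last i with ⟨i, rfl⟩ | ⟨rfl⟩
    · rw [Function.Embedding.smul_apply, SubMulAction.ofStabilizer.snoc_castSucc]
      have := congrArg (fun f => ((f i : SubMulAction.ofStabilizer G a) : X)) hg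
      exact this
    · rw [Function.Embedding.smul_apply, SubMulAction.ofStabilizer.snoc_last]
      exact g.2
  rw [hsharp] at this
  exact this

theorem sharp5_deg12 (hX : Nat.card X = 12) [IsMultiplyPretransitive G X 5]
    (hsharp : ∀ x : Fin 5 ↪ X, stabilizer G x = ⊥) : IsSimpleGroup G ∧ Nat.card G = 95040 := by
  have hfin : Finite X := Nat.finite_of_card_ne_zero (by rw [hX]; norm_num)
  obtain ⟨x⟩ := exists_embedding_of_le (X := X) (n := 5) (by rw [hX]; norm_num)
  have hcard : Nat.card G = 95040 := by
    rw [card_of_sharply_transitive x (hsharp x), hX]; rfl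
  have hGfin : Finite G := Nat.finite_of_card_ne_zero (by rw [hcard]; norm_num)
  refine ⟨?_, hcard⟩
  have h2t : IsMultiplyPretransitive G X 2 :=
    isMultiplyPretransitive_of_le (n := 5) (by norm_num) (by rw [hX]; norm_num)
  have h1t : IsPretransitive G X := isPretransitive_of_is_two_pretransitive
  have h4 : IsMultiplyPretransitive (stabilizer G (x 0)) (SubMulAction.ofStabilizer G (x 0)) 4 :=
    SubMulAction.ofStabilizer.isMultiplyPretransitive.1 inferInstance
  have hs := (sharp4_deg11 (G := stabilizer G (x 0)) (X := SubMulAction.ofStabilizer G (x 0))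
    (by rw [SubMulAction.nat_card_ofStabilizer_eq, hX]) (sharp_ofStabilizer hsharp (x 0))).1
  rw [is_two_pretransitive_iff] at h2t
  apply isSimpleGroup_of_two_transitive (Set.univ : Set X) (x 0) (Set.mem_univ _)
    (fun _ _ _ => Set.mem_univ _) (fun z _ => exists_smul_eq G _ z)
    (fun z _ hz z' _ hz' => h2t hz.symm hz'.symm)
    (fun g hg => faithful_of_sharp x (hsharp x) g (fun z => hg z (Set.mem_univ _)))
    _ hs
  rw [Set.ncard_univ, hX]
  exact not_isPrimePow_of_dvd (p := 2) (q := 3) (by norm_num) (by norm_num) (by norm_num)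
    (by norm_num) (by norm_num)

end Cfsg.Agent.Lib.Helper7
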